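import Cfsg.Agent.LThreeCo1.Ranks

/-!
# 3-groups centralising an element of order 9 of `Co1` (helper253)

`bound` : `A` a 3-group acting on `F_2^24`, `g ∈ Z(A)`, `g^9 = 1`, `|C_V(g^3)| = 2^12`, every element of order 3 of `A` fixes at
most `2^12` vectors: `|A| ≤ 729` (three orbits of length at most 9).
-/

set_option autoImplicit false

namespace Cfsg.Agent.H253.CoNine

open MulAction Module

section orb

variable {A : Type*} [Group A]

theorem dvd_of_orbits {X : Type*} [Finite X] [MulAction A X] (m : ℕ) (h : ∀ x : X, m ∣ Nat.card (orbit A x)) :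
    m ∣ Nat.card X := by
  classical
  have := Fintype.ofFinite (Quotient (MulAction.orbitRel A X))
  rw [Nat.card_congr (MulAction.selfEquivSigmaOrbits A X), Nat.card_sigma]
  exact Finset.dvd_sum fun ω _ => h _

theorem exists_small [Finite A] (hA : IsPGroup 3 A) {X : Type*} [Finite X] [MulAction A X] (h : ¬ 27 ∣ Nat.card X) :
    ∃ x : X, (stabilizer A x).index ≤ 9 := by
  by_contra hcon
  push Not at hcon
  apply h
  apply dvd_of_orbits (A := A)
  intro x
  have h1 := hcon x
  obtain ⟨n, hn⟩ := IsPGroup.iff_card.1 hA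
  have h2 : (stabilizer A x).index ∣ 3 ^ n := by
    rw [← hn]
    exact Subgroup.index_dvd_card _
  obtain ⟨k, -, hk⟩ := (Nat.dvd_prime_pow Nat.prime_three).1 h2
  have h3 : Nat.card (orbit A x) = 3 ^ k := by
    rw [← hk, index_stabilizer, Nat.card_coe_set_eq]
  rw [hk] at h1
  have h4 : 3 ≤ k := by
    by_contra h5
    have : 3 ^ k ≤ 3 ^ 2 := Nat.pow_le_pow_right (by norm_num) (by omega)
    omega
  rw [h3, show 27 = 3 ^ 3 by norm_num]
  exact pow_dvd_pow 3 h4

/-- a small orbit of a 3-subgroup `B` on an invariant set -/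
theorem step [Finite A] {B : Subgroup A} (hB : IsPGroup 3 B) {X : Type*} [Finite X] [MulAction A X] (S : Set X)
    (hS : ∀ b ∈ B, ∀ x ∈ S, b • x ∈ S) (h : ¬ 27 ∣ S.ncard) :
    ∃ x ∈ S, Nat.card B ≤ 9 * Nat.card ↥(B ⊓ stabilizer A x) := by
  let M : MulAction B S :=
    { smul := fun b x => ⟨(b : A) • (x : X), hS b b.2 x x.2⟩
      one_smul := fun x => Subtype.ext (one_smul A (x : X))
      mul_smul := fun a b x => Subtype.ext (mul_smul (a : A) (b : A) (x : X)) }
  obtain ⟨x, hx⟩ := exists_small (A := B) (X := S) hB (by rwa [Nat.card_coe_set_eq])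
  refine ⟨x, x.2, ?_⟩
  have h1 : stabilizer B x = (stabilizer A (x : X)).subgroupOf B := by
    ext b
    rw [mem_stabilizer_iff, Subgroup.mem_subgroupOf, mem_stabilizer_iff]
    exact Subtype.ext_iff
  rw [h1] at hx
  change (stabilizer A (x : X)).relIndex B ≤ 9 at hx
  have h2 : (⊥ : Subgroup A).relIndex (B ⊓ stabilizer A (x : X)) * (B ⊓ stabilizer A (x : X)).relIndex B =
      (⊥ : Subgroup A).relIndex B := Subgroup.relIndex_mul_relIndex _ _ _ bot_le inf_le_left
  rw [Subgroup.relIndex_bot_left, Subgroup.relIndex_bot_left, Subgroup.inf_relIndex_left] at h2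
  rw [← h2, mul_comm]
  exact Nat.mul_le_mul_right _ hx

end orb

section lin

variable {A V : Type*} [Group A] [AddCommGroup V] [Module (ZMod 2) V] [DistribMulAction A V]

/-- the vectors fixed by `B` -/
def Fx (V : Type*) [AddCommGroup V] [Module (ZMod 2) V] [DistribMulAction A V] (B : Subgroup A) :
    Submodule (ZMod 2) V where
  carrier := {v | ∀ b ∈ B, b • v = v}
  zero_mem' := fun b _ => smul_zero b
  add_mem' := fun {v w} hv hw b hb => by rw [smul_add, hv b hb, hw b hb]
  smul_mem' := fun r v hv b hb => by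
    have hr : r = 0 ∨ r = 1 := by revert r; decide
    rcases hr with rfl | rfl
    · rw [zero_smul, smul_zero]
    · rw [one_smul, hv b hb]

theorem mem_Fx {B : Subgroup A} {v : V} : v ∈ Fx V B ↔ ∀ b ∈ B, b • v = v := Iff.rfl

theorem card_sub [Finite V] (W : Submodule (ZMod 2) V) : Nat.card W = 2 ^ finrank (ZMod 2) W := by
  rw [Module.natCard_eq_pow_finrank (K := ZMod 2), Nat.card_zmod]

theorem ncard_sub [Finite V] (W : Submodule (ZMod 2) V) : (W : Set V).ncard = 2 ^ finrank (ZMod 2) W := by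
  rw [← card_sub W, ← Nat.card_coe_set_eq]; rfl

theorem arith : ∀ a < 25, ∀ b < 25, b ≤ a → 9 ∣ 2 ^ a - 2 ^ b → 6 ∣ a - b := by decide

/-- dimension of a `g`-invariant subspace modulo the fixed points of `g ^ 3` -/
theorem six_dvd [Finite V] (hV : finrank (ZMod 2) V = 24) {g : A} (h9 : g ^ 9 = 1) (F : Submodule (ZMod 2) V)
    (hF : ∀ v, v ∈ F ↔ g ^ 3 • v = v) (W : Submodule (ZMod 2) V) (hW : ∀ v ∈ W, g • v ∈ W) :
    ∃ c, finrank (ZMod 2) W = finrank (ZMod 2) ↥(W ⊓ F) + 6 * c := by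
  have hfd : FiniteDimensional (ZMod 2) V := Module.Finite.of_finite
  have hWk : ∀ k : ℕ, ∀ v ∈ W, g ^ k • v ∈ W := by
    intro k
    induction k with
    | zero => intro v hv; rw [pow_zero, one_smul]; exact hv
    | succ k ih => intro v hv; rw [pow_succ, mul_smul]; exact ih _ (hW v hv)
  have hgF : ∀ v, g • v ∈ F → v ∈ F := by
    intro v hv
    rw [hF] at hv ⊢
    rw [← mul_smul, ← pow_succ, pow_succ', mul_smul] at hv
    exact (smul_left_cancel g hv)
  have hgkF : ∀ (k : ℕ) (v : V), g ^ k • v ∈ F → v ∈ F := by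
    intro k
    induction k with
    | zero => intro v hv; rwa [pow_zero, one_smul] at hv
    | succ k ih => intro v hv; rw [pow_succ, mul_smul] at hv; exact hgF v (ih _ hv)
  have hz : ∀ b ∈ Subgroup.zpowers g, ∃ k : ℕ, b = g ^ k := by
    intro b hb
    have hfin : IsOfFinOrder g := isOfFinOrder_iff_pow_eq_one.2 ⟨9, by norm_num, h9⟩
    rw [← hfin.mem_powers_iff_mem_zpowers] at hb
    obtain ⟨k, hk⟩ := hb
    exact ⟨k, hk.symm⟩
  let X : Set V := (W : Set V) \ (W ⊓ F : Submodule (ZMod 2) V)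
  have hX : ∀ b ∈ Subgroup.zpowers g, ∀ x ∈ X, b • x ∈ X := by
    intro b hb x hx
    obtain ⟨k, rfl⟩ := hz b hb
    exact ⟨hWk k x hx.1, fun h => hx.2 ⟨hx.1, hgkF k x h.2⟩⟩
  let M : MulAction (Subgroup.zpowers g) X :=
    { smul := fun b x => ⟨(b : A) • (x : V), hX b b.2 x x.2⟩
      one_smul := fun x => Subtype.ext (one_smul A (x : V))
      mul_smul := fun a b x => Subtype.ext (mul_smul (a : A) (b : A) (x : V)) }
  have hfinz : Finite (Subgroup.zpowers g) := by
    have hfin : IsOfFinOrder g := isOfFinOrder_iff_pow_eq_one.2 ⟨9, by norm_num, h9⟩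
    exact hfin.finite_zpowers
  have h1 : 9 ∣ Nat.card X := by
    apply dvd_of_orbits (A := Subgroup.zpowers g)
    intro x
    have e1 : Nat.card (orbit (Subgroup.zpowers g) x) = (stabilizer (Subgroup.zpowers g) x).index := by
      rw [index_stabilizer, Nat.card_coe_set_eq]
    rw [e1]
    have e2 : (stabilizer (Subgroup.zpowers g) x).index ∣ 9 := by
      refine (Subgroup.index_dvd_card _).trans ?_
      rw [Nat.card_zpowers]
      exact orderOf_dvd_of_pow_eq_one h9
    have e3 : ¬ (stabilizer (Subgroup.zpowers g) x).index ∣ 3 := by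
      rintro ⟨m, hm⟩
      let γ : Subgroup.zpowers g := ⟨g, Subgroup.mem_zpowers g⟩
      have h2 : γ ^ (stabilizer (Subgroup.zpowers g) x).index ∈ stabilizer (Subgroup.zpowers g) x :=
        Subgroup.pow_index_mem _ _
      have h3 : γ ^ 3 ∈ stabilizer (Subgroup.zpowers g) x := by
        rw [hm, pow_mul]
        exact Subgroup.pow_mem _ h2 m
      have h4 : γ ^ 3 • x = x := h3
      have h5 : g ^ 3 • (x : V) = x := congrArg Subtype.val h4
      exact x.2.2 ⟨x.2.1, (hF _).2 h5⟩
    have h6 : ∀ d : ℕ, d ≤ 9 → d ∣ 9 → ¬ d ∣ 3 → 9 ∣ d := by decide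
    exact h6 _ (Nat.le_of_dvd (by norm_num) e2) e2 e3
  have h2 : Nat.card X = 2 ^ finrank (ZMod 2) W - 2 ^ finrank (ZMod 2) ↥(W ⊓ F) := by
    rw [Nat.card_coe_set_eq, Set.ncard_sdiff (fun v hv => hv.1) (Set.toFinite _), ncard_sub, ncard_sub]
  rw [h2] at h1
  have h3 : finrank (ZMod 2) ↥(W ⊓ F) ≤ finrank (ZMod 2) W := Submodule.finrank_mono inf_le_left
  have h4 : finrank (ZMod 2) W ≤ 24 := hV ▸ Submodule.finrank_le W
  obtain ⟨c, hc⟩ := arith _ (by omega) _ (by omega) h3 h1
  exact ⟨c, by omega⟩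

/-- **The bound.** -/
theorem bound [Finite A] [Finite V] (hV : finrank (ZMod 2) V = 24) (hA : IsPGroup 3 A) {g : A}
    (hg : ∀ a, a * g = g * a) (h9 : g ^ 9 = 1) (hF : Nat.card {v : V // g ^ 3 • v = v} = 2 ^ 12)
    (h3 : ∀ x : A, orderOf x = 3 → Nat.card {v : V // x • v = v} ≤ 2 ^ 12) : Nat.card A ≤ 729 := by
  have hfd : FiniteDimensional (ZMod 2) V := Module.Finite.of_finite
  let F : Submodule (ZMod 2) V :=
    { carrier := {v | g ^ 3 • v = v}
      zero_mem' := smul_zero _
      add_mem' := fun {v w} hv hw => by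
        show g ^ 3 • (v + w) = v + w
        rw [smul_add]
        exact congrArg₂ (· + ·) hv hw
      smul_mem' := fun r v hv => by
        have hr : r = 0 ∨ r = 1 := by revert r; decide
        rcases hr with rfl | rfl
        · rw [zero_smul]; exact smul_zero _
        · rwa [one_smul] }
  have memF : ∀ v, v ∈ F ↔ g ^ 3 • v = v := fun v => Iff.rfl
  have hcF : finrank (ZMod 2) F = 12 := by
    have h1 : Nat.card F = 2 ^ 12 := hF
    rw [card_sub] at h1
    exact Nat.pow_right_injective (le_refl 2) h1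
  have hFinv : ∀ (a : A), ∀ v ∈ F, a • v ∈ F := by
    intro a v hv
    rw [memF] at hv ⊢
    have e : g ^ 3 * a = a * g ^ 3 := by
      have h1 : Commute a g := hg a
      exact (h1.pow_right 3).symm
    rw [← mul_smul, e, mul_smul, hv]
  have hFxg : ∀ B : Subgroup A, ∀ v ∈ Fx V B, g • v ∈ Fx V B := by
    intro B v hv b hb
    rw [← mul_smul, hg, mul_smul, hv b hb]
  have hsup : ∀ W : Submodule (ZMod 2) V, finrank (ZMod 2) ↥(W ⊔ F) + finrank (ZMod 2) ↥(W ⊓ F) =
      finrank (ZMod 2) W + 12 := by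
    intro W
    rw [Submodule.finrank_sup_add_finrank_inf_eq, hcF]
  have hle24 : ∀ W : Submodule (ZMod 2) V, finrank (ZMod 2) W ≤ 24 := fun W => hV ▸ Submodule.finrank_le W
  have hsub : ∀ B : Subgroup A, IsPGroup 3 B := fun B => hA.to_subgroup B
  have huniv : (Set.univ : Set V).ncard = 2 ^ 24 := by
    rw [Set.ncard_univ, Module.natCard_eq_pow_finrank (K := ZMod 2), Nat.card_zmod, hV]
  -- reduction to a subgroup of index at most 81 with fixed points complementing `F`
  obtain ⟨B, hB81, hBF⟩ : ∃ B : Subgroup A, Nat.card A ≤ 81 * Nat.card B ∧ Fx V B ⊔ F = ⊤ := by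
    obtain ⟨v1, hv1, hs1⟩ := step (B := (⊤ : Subgroup A)) (hsub ⊤) (X := V) ((Set.univ : Set V) \ F)
      (fun b _ x hx => ⟨trivial, fun h => hx.2 (by
        have := hFinv b⁻¹ _ h
        rwa [inv_smul_smul] at this)⟩) (by
        rw [Set.ncard_sdiff (Set.subset_univ _) (Set.toFinite _), huniv, ncard_sub, hcF]
        norm_num)
    rw [Subgroup.card_top, top_inf_eq] at hs1
    set B1 := stabilizer A v1
    have hv1' : v1 ∈ Fx V B1 := fun b hb => hb
    obtain ⟨c, hc⟩ := six_dvd hV h9 F memF (Fx V B1) (hFxg B1)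
    have e1 := hsup (Fx V B1)
    have e2 := hle24 (Fx V B1 ⊔ F)
    have hc0 : c ≠ 0 := by
      rintro rfl
      have h1 : Fx V B1 ⊓ F = Fx V B1 := Submodule.eq_of_le_of_finrank_eq inf_le_left (by omega)
      have h2 : v1 ∈ Fx V B1 ⊓ F := by rw [h1]; exact hv1'
      exact hv1.2 h2.2
    rcases Nat.lt_or_ge c 2 with hc1 | hc2
    · have hc1' : c = 1 := by omega
      subst hc1'
      have e3 : finrank (ZMod 2) ↥(Fx V B1 ⊔ F) = 18 := by omega
      obtain ⟨v2, hv2, hs2⟩ := step (hsub B1) (X := V) ((Set.univ : Set V) \ (Fx V B1 ⊔ F : Submodule (ZMod 2) V))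
        (fun b hb x hx => ⟨trivial, fun h => hx.2 (by
          obtain ⟨y, hy, z, hz, hyz⟩ := Submodule.mem_sup.1 h
          have h1 : x = y + b⁻¹ • z := by
            have h2 : b⁻¹ • (y + z) = x := by rw [hyz, inv_smul_smul]
            rw [← h2, smul_add, hy b⁻¹ (B1.inv_mem hb)]
          rw [h1]
          exact Submodule.add_mem_sup hy (hFinv _ z hz))⟩) (by
          rw [Set.ncard_sdiff (Set.subset_univ _) (Set.toFinite _), huniv, ncard_sub, e3]
          norm_num)
      refine ⟨B1 ⊓ stabilizer A v2, by omega, ?_⟩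
      set B2 := B1 ⊓ stabilizer A v2
      have hv2' : v2 ∈ Fx V B2 := fun b hb => hb.2
      have hmono : Fx V B1 ≤ Fx V B2 := fun v hv b hb => hv b hb.1
      obtain ⟨d, hd⟩ := six_dvd hV h9 F memF (Fx V B2) (hFxg B2)
      have e4 := hsup (Fx V B2)
      have e5 := hle24 (Fx V B2 ⊔ F)
      have e6 : finrank (ZMod 2) ↥(Fx V B1 ⊔ F) < finrank (ZMod 2) ↥(Fx V B2 ⊔ F) := by
        apply Submodule.finrank_lt_finrank_of_lt
        refine lt_of_le_of_ne (sup_le_sup_right hmono F) fun h => hv2.2 ?_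
        rw [h]
        exact Submodule.mem_sup_left hv2'
      apply Submodule.eq_top_of_finrank_eq
      rw [hV]
      omega
    · refine ⟨B1, by omega, ?_⟩
      apply Submodule.eq_top_of_finrank_eq
      rw [hV]
      omega
  obtain ⟨v3, hv3, hs3⟩ := step (hsub B) (X := V) ((F : Set V) \ {0})
    (fun b _ x hx => ⟨hFinv b x hx.1, fun h => hx.2 (by
      have h1 : b • x = 0 := h
      have h2 : b⁻¹ • b • x = b⁻¹ • (0 : V) := by rw [h1]
      rw [inv_smul_smul, smul_zero] at h2
      exact h2)⟩) (by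
      rw [Set.ncard_sdiff (Set.singleton_subset_iff.2 F.zero_mem) (Set.toFinite _), ncard_sub, hcF, Set.ncard_singleton]
      norm_num)
  set C := B ⊓ stabilizer A v3
  have hC : Nat.card C = 1 := by
    by_contra hcon
    obtain ⟨n, hn⟩ := IsPGroup.iff_card.1 (hsub C)
    have hn0 : n ≠ 0 := by
      rintro rfl
      exact hcon (by rw [hn, pow_zero])
    have : Fact (Nat.Prime 3) := ⟨Nat.prime_three⟩
    obtain ⟨x, hx⟩ := exists_prime_orderOf_dvd_card' (G := C) 3 (by rw [hn]; exact dvd_pow_self 3 hn0)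
    have hx' : orderOf (x : A) = 3 := by rw [Subgroup.orderOf_coe, hx]
    have h4 := h3 x hx'
    let W : Submodule (ZMod 2) V := Fx V (Subgroup.zpowers (x : A))
    have h5 : Nat.card W ≤ 2 ^ 12 := by
      refine le_trans (le_of_eq ?_) h4
      apply Nat.card_congr
      exact
        { toFun := fun v => ⟨v, v.2 _ (Subgroup.mem_zpowers _)⟩
          invFun := fun v => ⟨v, fun b hb => by
            have h6 : Subgroup.zpowers (x : A) ≤ stabilizer A (v : V) :=
              (Subgroup.zpowers_le).2 (mem_stabilizer_iff.2 v.2)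
            exact h6 hb⟩
          left_inv := fun _ => rfl
          right_inv := fun _ => rfl }
    rw [card_sub] at h5
    have h6 : finrank (ZMod 2) W ≤ 12 := by
      by_contra h7
      have : 2 ^ 13 ≤ 2 ^ finrank (ZMod 2) W := Nat.pow_le_pow_right (by norm_num) (by omega)
      omega
    have hzC : Subgroup.zpowers (x : A) ≤ C := (Subgroup.zpowers_le).2 x.2
    have h7 : Fx V B ≤ W := fun v hv b hb => hv b (hzC hb).1
    have h8 : v3 ∈ W := fun b hb => (hzC hb).2
    have h9' : W ⊔ F = ⊤ := top_le_iff.1 (hBF ▸ sup_le_sup_right h7 F)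
    have e1 := hsup W
    rw [h9', finrank_top, hV] at e1
    have e2 : finrank (ZMod 2) ↥(W ⊓ F) = 0 := by omega
    have e3 : W ⊓ F = ⊥ := Submodule.finrank_eq_zero.1 e2
    have e4 : v3 ∈ W ⊓ F := ⟨h8, hv3.1⟩
    rw [e3, Submodule.mem_bot] at e4
    exact hv3.2 e4
  omega

end lin

/-! ### `Co1` -/

section co

open Cfsg.Spor Cfsg.Agent.LThreeMB Cfsg.Agent.MonsterU.Lam2

theorem finrank_L2 : finrank (ZMod 2) L2 = 24 := by
  have h1 := Module.natCard_eq_pow_finrank (K := ZMod 2) (V := L2)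
  rw [card_L2, Nat.card_zmod] at h1
  exact (Nat.pow_right_injective (le_refl 2) h1).symm

theorem fr_le {s : Co1} (hs : orderOf s = 3) : fr s ≤ 2 ^ 12 := by
  rcases Cfsg.Agent.LThreeCo1.Ranks.ranks s hs with h | h | h | h <;> rw [h] <;> norm_num

/-- a 3-subgroup centralising `g` of order 9 with `fr (g ^ 3) = 2 ^ 12` and containing `g` -/
theorem card_le {g : Co1} (h9 : g ^ 9 = 1) (hfr : fr (g ^ 3) = 2 ^ 12) {S : Subgroup Co1} (hS : IsPGroup 3 S)
    (hgS : g ∈ S) (hc : ∀ s ∈ S, s * g = g * s) : Nat.card S ≤ 729 := by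
  have hfin : Finite Co1 := inferInstance
  refine bound (V := L2) finrank_L2 hS (g := ⟨g, hgS⟩) (fun a => Subtype.ext (hc a a.2)) (Subtype.ext h9) hfr ?_
  intro x hx
  rw [← Subgroup.orderOf_coe] at hx
  exact fr_le hx

/-- **`3 ^ 7` does not divide `|C(g)|`**, `g` of order 9, `fr (g ^ 3) = 2 ^ 12` -/
theorem not_dvd {g : Co1} (h9 : g ^ 9 = 1) (hfr : fr (g ^ 3) = 2 ^ 12) :
    ¬ 3 ^ 7 ∣ Nat.card (Subgroup.centralizer ({g} : Set Co1)) := by
  intro h
  have hfin : Finite Co1 := inferInstance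
  have : Fact (Nat.Prime 3) := ⟨Nat.prime_three⟩
  obtain ⟨P, hP⟩ := Sylow.exists_subgroup_card_pow_prime 3 h
  let T : Subgroup Co1 := P.map (Subgroup.centralizer ({g} : Set Co1)).subtype
  have hT : Nat.card T = 3 ^ 7 := by
    rw [Nat.card_congr (P.equivMapOfInjective _ (Subgroup.subtype_injective _)).toEquiv.symm, hP]
  have hTc : ∀ t ∈ T, t * g = g * t := by
    rintro _ ⟨t, -, rfl⟩
    exact Subgroup.mem_centralizer_singleton_iff.1 t.2
  have hcom : ∀ a ∈ T, ∀ b ∈ Subgroup.zpowers g, a * b = b * a := by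
    rintro a ha _ ⟨k, rfl⟩
    have h1 : Commute a g := hTc a ha
    exact (h1.zpow_right k).eq
  let S : Subgroup Co1 := T ⊔ Subgroup.zpowers g
  have hn : (Subgroup.zpowers g) ≤ Subgroup.centralizer (T : Set Co1) := fun b hb =>
    Subgroup.mem_centralizer_iff.2 fun a ha => hcom a ha b hb
  have hST : IsPGroup 3 S := by
    apply IsPGroup.to_sup_of_normal_left' (IsPGroup.of_card hT)
    · obtain ⟨k, -, hk⟩ := (Nat.dvd_prime_pow Nat.prime_three).1 (show orderOf g ∣ 3 ^ 2 from orderOf_dvd_of_pow_eq_one h9)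
      exact IsPGroup.of_card (n := k) (by rw [Nat.card_zpowers, hk])
    · exact hn.trans (Subgroup.centralizer_le_normalizer _)
  have h1 : Nat.card S ≤ 729 := card_le h9 hfr hST (Subgroup.mem_sup_right (Subgroup.mem_zpowers g)) (by
    intro s hs
    have h2 : S ≤ Subgroup.centralizer ({g} : Set Co1) := sup_le
      (fun t ht => Subgroup.mem_centralizer_singleton_iff.2 (hTc t ht))
      (Subgroup.zpowers_le.2 (Subgroup.mem_centralizer_singleton_iff.2 rfl))
    exact Subgroup.mem_centralizer_singleton_iff.1 (h2 hs))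
  have h2 : Nat.card T ≤ Nat.card S := Subgroup.card_le_of_le le_sup_left
  rw [hT] at h2
  omega

/-- **The bound of helper868.** -/
theorem bd_nine {g : Co1} (h9 : orderOf g = 9) (hfr : fr (g ^ 3) = 2 ^ 12)
    (hC : IsPGroup 3 (Subgroup.centralizer ({g} : Set Co1))) :
    Nat.card (Subgroup.centralizer ({g} : Set Co1)) ≤ 729 :=
  card_le (by rw [← h9, pow_orderOf_eq_one]) hfr hC (Subgroup.mem_centralizer_singleton_iff.2 rfl)
    fun _ hs => Subgroup.mem_centralizer_singleton_iff.1 hs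

end co

end Cfsg.Agent.H253.CoNine
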