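import Cfsg.Agent.H253.Co1.Nine

/-!
# 3-groups centralising an element of order 9 of `Co1`: all cases (helper253)

`bound_all` : `A` a 3-group acting on `F_2^24`, `g ∈ Z(A)`, `g^9 = 1`, `|C_V(g^3)| ≤ 2^6`, every element of order 3 of `A` fixes
at most `2^12` vectors: `|A| ≤ 2187`.
-/

set_option autoImplicit false

namespace Cfsg.Agent.H253.CoNine

open MulAction Module

section orb

variable {A : Type*} [Group A]

theorem exists_small' [Finite A] (hA : IsPGroup 3 A) {X : Type*} [Finite X] [MulAction A X] {k : ℕ}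
    (h : ¬ 3 ^ (k + 1) ∣ Nat.card X) : ∃ x : X, (stabilizer A x).index ≤ 3 ^ k := by
  by_contra hcon
  push Not at hcon
  apply h
  apply dvd_of_orbits (A := A)
  intro x
  have h1 := hcon x
  obtain ⟨n, hn⟩ := IsPGroup.iff_card.1 hA
  have h2 : (stabilizer A x).index ∣ 3 ^ n := by
    rw [← hn]
    exact Subgroup.index_dvd_card _
  obtain ⟨j, -, hj⟩ := (Nat.dvd_prime_pow Nat.prime_three).1 h2
  have h3 : Nat.card (orbit A x) = 3 ^ j := by
    rw [← hj, index_stabilizer, Nat.card_coe_set_eq]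
  rw [hj] at h1
  have h4 : k < j := (Nat.pow_lt_pow_iff_right (by norm_num : 1 < 3)).1 h1
  rw [h3]
  exact pow_dvd_pow 3 h4

theorem step' [Finite A] {B : Subgroup A} (hB : IsPGroup 3 B) {X : Type*} [Finite X] [MulAction A X] (S : Set X)
    (hS : ∀ b ∈ B, ∀ x ∈ S, b • x ∈ S) {k : ℕ} (h : ¬ 3 ^ (k + 1) ∣ S.ncard) :
    ∃ x ∈ S, Nat.card B ≤ 3 ^ k * Nat.card ↥(B ⊓ stabilizer A x) := by
  let M : MulAction B S :=
    { smul := fun b x => ⟨(b : A) • (x : X), hS b b.2 x x.2⟩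
      one_smul := fun x => Subtype.ext (one_smul A (x : X))
      mul_smul := fun a b x => Subtype.ext (mul_smul (a : A) (b : A) (x : X)) }
  obtain ⟨x, hx⟩ := exists_small' (A := B) (X := S) hB (by rwa [Nat.card_coe_set_eq])
  refine ⟨x, x.2, ?_⟩
  have h1 : stabilizer B x = (stabilizer A (x : X)).subgroupOf B := by
    ext b
    rw [mem_stabilizer_iff, Subgroup.mem_subgroupOf, mem_stabilizer_iff]
    exact Subtype.ext_iff
  rw [h1] at hx
  change (stabilizer A (x : X)).relIndex B ≤ 3 ^ k at hx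
  have h2 : (⊥ : Subgroup A).relIndex (B ⊓ stabilizer A (x : X)) * (B ⊓ stabilizer A (x : X)).relIndex B =
      (⊥ : Subgroup A).relIndex B := Subgroup.relIndex_mul_relIndex _ _ _ bot_le inf_le_left
  rw [Subgroup.relIndex_bot_left, Subgroup.relIndex_bot_left, Subgroup.inf_relIndex_left] at h2
  rw [← h2, mul_comm]
  exact Nat.mul_le_mul_right _ hx

end orb

section lin

variable {A V : Type*} [Group A] [AddCommGroup V] [Module (ZMod 2) V] [DistribMulAction A V]

/-- the situation -/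
structure NS (V : Type*) [AddCommGroup V] [Module (ZMod 2) V] [DistribMulAction A V] (g : A)
    (F : Submodule (ZMod 2) V) : Prop where
  hV : finrank (ZMod 2) V = 24
  hA : IsPGroup 3 A
  hg : ∀ a, a * g = g * a
  h9 : g ^ 9 = 1
  hF : ∀ v, v ∈ F ↔ g ^ 3 • v = v
  h3 : ∀ x : A, orderOf x = 3 → Nat.card {v : V // x • v = v} ≤ 2 ^ 12

/-- the fixed points of `g ^ 3` -/
def F3 (V : Type*) [AddCommGroup V] [Module (ZMod 2) V] [DistribMulAction A V] (g : A) :
    Submodule (ZMod 2) V where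
  carrier := {v | g ^ 3 • v = v}
  zero_mem' := smul_zero _
  add_mem' := fun {v w} hv hw => by
    show g ^ 3 • (v + w) = v + w
    rw [smul_add]
    exact congrArg₂ (· + ·) hv hw
  smul_mem' := fun r v hv => by
    have hr : r = 0 ∨ r = 1 := by revert r; decide
    rcases hr with rfl | rfl
    · rw [zero_smul]; exact smul_zero _
    · rwa [one_smul]

variable {g : A} {F : Submodule (ZMod 2) V}

theorem NS.inv (h : NS V g F) (a : A) : ∀ v ∈ F, a • v ∈ F := by
  intro v hv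
  rw [h.hF] at hv ⊢
  have e : g ^ 3 * a = a * g ^ 3 := by
    have h1 : Commute a g := h.hg a
    exact (h1.pow_right 3).symm
  rw [← mul_smul, e, mul_smul, hv]

theorem NS.sup [Finite V] (h : NS V g F) (B : Subgroup A) :
    ∃ c, finrank (ZMod 2) ↥(Fx V B ⊔ F) = finrank (ZMod 2) F + 6 * c := by
  obtain ⟨c, hc⟩ := six_dvd h.hV h.h9 F h.hF (Fx V B) (by
    intro v hv b hb
    rw [← mul_smul, h.hg, mul_smul, hv b hb])
  have hfd : FiniteDimensional (ZMod 2) V := Module.Finite.of_finite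
  have h1 := Submodule.finrank_sup_add_finrank_inf_eq (Fx V B) F
  exact ⟨c, by omega⟩

theorem NS.grow [Finite A] [Finite V] (h : NS V g F) (B : Subgroup A) {k : ℕ}
    (hk : ¬ 3 ^ (k + 1) ∣ 2 ^ 24 - 2 ^ finrank (ZMod 2) ↥(Fx V B ⊔ F)) :
    ∃ B' : Subgroup A, Nat.card B ≤ 3 ^ k * Nat.card B' ∧
      finrank (ZMod 2) ↥(Fx V B ⊔ F) + 6 ≤ finrank (ZMod 2) ↥(Fx V B' ⊔ F) := by
  have hfd : FiniteDimensional (ZMod 2) V := Module.Finite.of_finite
  have huniv : (Set.univ : Set V).ncard = 2 ^ 24 := by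
    rw [Set.ncard_univ, Module.natCard_eq_pow_finrank (K := ZMod 2), Nat.card_zmod, h.hV]
  obtain ⟨v, hv, hs⟩ := step' (h.hA.to_subgroup B) (X := V)
    ((Set.univ : Set V) \ (Fx V B ⊔ F : Submodule (ZMod 2) V))
    (fun b hb x hx => ⟨trivial, fun h' => hx.2 (by
      obtain ⟨y, hy, z, hz, hyz⟩ := Submodule.mem_sup.1 h'
      have h1 : x = y + b⁻¹ • z := by
        have h2 : b⁻¹ • (y + z) = x := by rw [hyz, inv_smul_smul]
        rw [← h2, smul_add, hy b⁻¹ (B.inv_mem hb)]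
      rw [h1]
      exact Submodule.add_mem_sup hy (h.inv _ z hz))⟩) (k := k) (by
      rw [Set.ncard_sdiff (Set.subset_univ _) (Set.toFinite _), huniv, ncard_sub]
      exact hk)
  refine ⟨B ⊓ stabilizer A v, hs, ?_⟩
  obtain ⟨c, hc⟩ := h.sup B
  obtain ⟨d, hd⟩ := h.sup (B ⊓ stabilizer A v)
  have hmono : Fx V B ≤ Fx V (B ⊓ stabilizer A v) := fun w hw b hb => hw b hb.1
  have e6 : finrank (ZMod 2) ↥(Fx V B ⊔ F) < finrank (ZMod 2) ↥(Fx V (B ⊓ stabilizer A v) ⊔ F) := by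
    apply Submodule.finrank_lt_finrank_of_lt
    refine lt_of_le_of_ne (sup_le_sup_right hmono F) fun h' => hv.2 ?_
    rw [h']
    exact Submodule.mem_sup_left (fun b hb => hb.2)
  omega

/-- a subgroup with more than `2 ^ 12` fixed points is trivial -/
theorem NS.one_of [Finite A] [Finite V] (h : NS V g F) (B : Subgroup A)
    (hB : 12 < finrank (ZMod 2) (Fx V B)) : Nat.card B ≤ 1 := by
  have hfd : FiniteDimensional (ZMod 2) V := Module.Finite.of_finite
  by_contra hcon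
  obtain ⟨n, hn⟩ := IsPGroup.iff_card.1 (h.hA.to_subgroup B)
  have hn0 : n ≠ 0 := by
    rintro rfl
    exact hcon (by rw [hn, pow_zero])
  have : Fact (Nat.Prime 3) := ⟨Nat.prime_three⟩
  obtain ⟨x, hx⟩ := exists_prime_orderOf_dvd_card' (G := B) 3 (by rw [hn]; exact dvd_pow_self 3 hn0)
  have hx' : orderOf (x : A) = 3 := by rw [Subgroup.orderOf_coe, hx]
  have h4 := h.h3 x hx'
  have h5 : Nat.card (Fx V B) ≤ 2 ^ 12 := by
    refine le_trans (Nat.card_le_card_of_injective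
      (fun v : Fx V B => (⟨v, v.2 _ x.2⟩ : {v : V // (x : A) • v = v})) ?_) h4
    intro v w hvw
    exact Subtype.ext (congrArg (fun z : {v : V // (x : A) • v = v} => (z : V)) hvw)
  rw [card_sub] at h5
  have : 2 ^ 13 ≤ 2 ^ finrank (ZMod 2) (Fx V B) := Nat.pow_le_pow_right (by norm_num) (by omega)
  omega

theorem NS.dim_le [Finite V] (h : NS V g F) (B : Subgroup A) :
    finrank (ZMod 2) ↥(Fx V B ⊔ F) ≤ finrank (ZMod 2) (Fx V B) + finrank (ZMod 2) F := by
  have hfd : FiniteDimensional (ZMod 2) V := Module.Finite.of_finite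
  exact Submodule.finrank_add_le_finrank_add_finrank _ _

/-- `|C_V(g ^ 3)| = 2 ^ 6` -/
theorem NS.six [Finite A] [Finite V] (h : NS V g F) (hf : finrank (ZMod 2) F = 6) : Nat.card A ≤ 2187 := by
  have hfd : FiniteDimensional (ZMod 2) V := Module.Finite.of_finite
  have hle24 : ∀ W : Submodule (ZMod 2) V, finrank (ZMod 2) W ≤ 24 := fun W => h.hV ▸ Submodule.finrank_le W
  have L24 : ∀ B : Subgroup A, 24 ≤ finrank (ZMod 2) ↥(Fx V B ⊔ F) → Nat.card B ≤ 1 := by
    intro B hB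
    have h1 := h.dim_le B
    exact h.one_of B (by omega)
  have L18 : ∀ B : Subgroup A, 18 ≤ finrank (ZMod 2) ↥(Fx V B ⊔ F) → Nat.card B ≤ 9 := by
    intro B hB
    obtain ⟨c, hc⟩ := h.sup B
    have h1 := hle24 (Fx V B ⊔ F)
    rcases Nat.lt_or_ge (finrank (ZMod 2) ↥(Fx V B ⊔ F)) 24 with h2 | h2
    · obtain ⟨B', h3, h4⟩ := h.grow B (k := 2) (by
        have : finrank (ZMod 2) ↥(Fx V B ⊔ F) = 18 := by omega
        rw [this]; norm_num)
      have := L24 B' (by omega)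
      omega
    · have := L24 B h2
      omega
  have L12 : ∀ B : Subgroup A, 12 ≤ finrank (ZMod 2) ↥(Fx V B ⊔ F) → Nat.card B ≤ 81 := by
    intro B hB
    obtain ⟨c, hc⟩ := h.sup B
    have h1 := hle24 (Fx V B ⊔ F)
    rcases Nat.lt_or_ge (finrank (ZMod 2) ↥(Fx V B ⊔ F)) 18 with h2 | h2
    · obtain ⟨B', h3, h4⟩ := h.grow B (k := 2) (by
        have : finrank (ZMod 2) ↥(Fx V B ⊔ F) = 12 := by omega
        rw [this]; norm_num)
      have := L18 B' (by omega)
      omega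
    · have := L18 B h2
      omega
  obtain ⟨c, hc⟩ := h.sup (⊤ : Subgroup A)
  have hct : Nat.card (⊤ : Subgroup A) = Nat.card A := Subgroup.card_top
  rcases Nat.lt_or_ge (finrank (ZMod 2) ↥(Fx V (⊤ : Subgroup A) ⊔ F)) 12 with h2 | h2
  · obtain ⟨B', h3, h4⟩ := h.grow (⊤ : Subgroup A) (k := 3) (by
      have : finrank (ZMod 2) ↥(Fx V (⊤ : Subgroup A) ⊔ F) = 6 := by omega
      rw [this]; norm_num)
    have := L12 B' (by omega)
    omega
  · have := L12 ⊤ h2
    omega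

/-- `|C_V(g ^ 3)| = 1` -/
theorem NS.zero [Finite A] [Finite V] (h : NS V g F) (hf : finrank (ZMod 2) F = 0) : Nat.card A ≤ 2187 := by
  have hfd : FiniteDimensional (ZMod 2) V := Module.Finite.of_finite
  have hle24 : ∀ W : Submodule (ZMod 2) V, finrank (ZMod 2) W ≤ 24 := fun W => h.hV ▸ Submodule.finrank_le W
  have L18 : ∀ B : Subgroup A, 18 ≤ finrank (ZMod 2) ↥(Fx V B ⊔ F) → Nat.card B ≤ 1 := by
    intro B hB
    have h1 := h.dim_le B
    exact h.one_of B (by omega)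
  have L12 : ∀ B : Subgroup A, 12 ≤ finrank (ZMod 2) ↥(Fx V B ⊔ F) → Nat.card B ≤ 9 := by
    intro B hB
    obtain ⟨c, hc⟩ := h.sup B
    have h1 := hle24 (Fx V B ⊔ F)
    rcases Nat.lt_or_ge (finrank (ZMod 2) ↥(Fx V B ⊔ F)) 18 with h2 | h2
    · obtain ⟨B', h3, h4⟩ := h.grow B (k := 2) (by
        have : finrank (ZMod 2) ↥(Fx V B ⊔ F) = 12 := by omega
        rw [this]; norm_num)
      have := L18 B' (by omega)
      omega
    · have := L18 B h2
      omega
  have L6 : ∀ B : Subgroup A, 6 ≤ finrank (ZMod 2) ↥(Fx V B ⊔ F) → Nat.card B ≤ 243 := by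
    intro B hB
    obtain ⟨c, hc⟩ := h.sup B
    have h1 := hle24 (Fx V B ⊔ F)
    rcases Nat.lt_or_ge (finrank (ZMod 2) ↥(Fx V B ⊔ F)) 12 with h2 | h2
    · obtain ⟨B', h3, h4⟩ := h.grow B (k := 3) (by
        have : finrank (ZMod 2) ↥(Fx V B ⊔ F) = 6 := by omega
        rw [this]; norm_num)
      have := L12 B' (by omega)
      omega
    · have := L12 B h2
      omega
  obtain ⟨c, hc⟩ := h.sup (⊤ : Subgroup A)
  have hct : Nat.card (⊤ : Subgroup A) = Nat.card A := Subgroup.card_top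
  rcases Nat.lt_or_ge (finrank (ZMod 2) ↥(Fx V (⊤ : Subgroup A) ⊔ F)) 6 with h2 | h2
  · obtain ⟨B', h3, h4⟩ := h.grow (⊤ : Subgroup A) (k := 2) (by
      have : finrank (ZMod 2) ↥(Fx V (⊤ : Subgroup A) ⊔ F) = 0 := by omega
      rw [this]; norm_num)
    have := L6 B' (by omega)
    omega
  · have := L6 ⊤ h2
    omega

end lin

/-! ### `Co1` -/

section co

open Cfsg.Spor Cfsg.Agent.LThreeMB Cfsg.Agent.MonsterU.Lam2

/-- `fr (g ^ 3) ≠ 2 ^ 8`, and the possible values -/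
theorem fr_cube {g : Co1} (h9 : orderOf g = 9) : fr (g ^ 3) = 1 ∨ fr (g ^ 3) = 2 ^ 6 ∨ fr (g ^ 3) = 2 ^ 12 := by
  have ho : orderOf (g ^ 3) = 3 := by rw [orderOf_pow, h9]; norm_num
  rcases Cfsg.Agent.LThreeCo1.Ranks.ranks _ ho with h | h | h | h
  · exact Or.inl h
  · exact Or.inr (Or.inl h)
  · exfalso
    have hg9 : g ^ 9 = 1 := by rw [← h9, pow_orderOf_eq_one]
    have hF : finrank (ZMod 2) (F3 L2 g) = 8 := by
      have h1 : Nat.card (F3 L2 g) = 2 ^ 8 := h
      rw [card_sub] at h1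
      exact Nat.pow_right_injective (le_refl 2) h1
    obtain ⟨c, hc⟩ := six_dvd (V := L2) finrank_L2 hg9 (F3 L2 g) (fun v => Iff.rfl) ⊤ (fun v _ => Submodule.mem_top)
    rw [top_inf_eq, hF, finrank_top, finrank_L2] at hc
    omega
  · exact Or.inr (Or.inr h)

/-- **All cases**: a 3-group `S` containing `h` of order 9 and centralising it -/
theorem card_le_all {h : Co1} (h9 : orderOf h = 9) {S : Subgroup Co1} (hS : IsPGroup 3 S)
    (hgS : h ∈ S) (hc : ∀ s ∈ S, s * h = h * s) : Nat.card S ≤ 2187 := by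
  have hfin : Finite Co1 := inferInstance
  have hg9 : h ^ 9 = 1 := by rw [← h9, pow_orderOf_eq_one]
  have hns : NS (A := S) L2 ⟨h, hgS⟩ (F3 L2 (⟨h, hgS⟩ : S)) :=
    ⟨finrank_L2, hS, fun a => Subtype.ext (hc a a.2), Subtype.ext hg9, fun v => Iff.rfl, fun x hx => by
      rw [← Subgroup.orderOf_coe] at hx
      exact fr_le hx⟩
  have hcard : Nat.card (F3 L2 (⟨h, hgS⟩ : S)) = fr (h ^ 3) := rfl
  rcases fr_cube h9 with h1 | h1 | h1
  · rw [h1, card_sub] at hcard
    have h2 : finrank (ZMod 2) (F3 L2 (⟨h, hgS⟩ : S)) = 0 := by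
      rcases Nat.eq_zero_or_pos (finrank (ZMod 2) (F3 L2 (⟨h, hgS⟩ : S))) with h3 | h3
      · exact h3
      · have : 2 ^ 1 ≤ 2 ^ finrank (ZMod 2) (F3 L2 (⟨h, hgS⟩ : S)) := Nat.pow_le_pow_right (by norm_num) h3
        omega
    exact hns.zero h2
  · rw [h1, card_sub] at hcard
    exact hns.six (Nat.pow_right_injective (le_refl 2) hcard)
  · exact (card_le hg9 h1 hS hgS hc).trans (by norm_num)

/-- **helper868's form**: `h ∈ ⟨g⟩` of order 9, `C(g)` a 3-group -/
theorem bd_nine_all {g h : Co1} (hh : h ∈ Subgroup.zpowers g) (h9 : orderOf h = 9)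
    (hC : IsPGroup 3 (Subgroup.centralizer ({g} : Set Co1))) :
    Nat.card (Subgroup.centralizer ({g} : Set Co1)) ≤ 2187 ∧
      (fr (h ^ 3) = 2 ^ 12 → Nat.card (Subgroup.centralizer ({g} : Set Co1)) ≤ 729) := by
  obtain ⟨n, rfl⟩ := Subgroup.mem_zpowers_iff.1 hh
  have hmem : g ^ n ∈ Subgroup.centralizer ({g} : Set Co1) :=
    Subgroup.mem_centralizer_singleton_iff.2 ((Commute.refl g).zpow_left n).eq
  have hcm : ∀ s ∈ Subgroup.centralizer ({g} : Set Co1), s * g ^ n = g ^ n * s := fun s hs => by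
    have h1 : Commute s g := Subgroup.mem_centralizer_singleton_iff.1 hs
    exact (h1.zpow_right n).eq
  exact ⟨card_le_all h9 hC hmem hcm, fun hfr => card_le (by rw [← h9, pow_orderOf_eq_one]) hfr hC hmem hcm⟩

end co

end Cfsg.Agent.H253.CoNine
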