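import Cfsg.Agent.H8.Ore.JBound
import Cfsg.Agent.H55.CoOneBd
import Cfsg.Agent.H572.CoFiveThree

/-!
# Elements of `Co1` with centralizer of odd order and a power of order 5 or 7 (helper253)

`y ∈ ⟨g⟩`, `|C(g)|` odd.

* `five_one` : `|y| = 5`, `fr y = 1`: `|C(g)| ≤ 3375`;
* `five_eight` : `|y| = 5`, `fr y = 2^8`: `|C(g)| ≤ 1125`;
* `five_four` : `|y| = 5`, `fr y = 2^4`, `3 ∣ |g|`: `|C(g)| ≤ 225`;
* `seven` : `|y| = 7`: `|C(g)| ≤ 2205`.
-/

set_option autoImplicit false

namespace Cfsg.Agent.H253.CoOdd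

open Cfsg Subgroup
open Cfsg.Agent.LThreeMB (fr XX Zx)
open Cfsg.Agent.H55.CoOneBd
open Cfsg.Spor (Co1)

theorem odd_le {n B k : ℕ} (h : OddLe n B) (hk : k ∣ n) (h2 : ¬ 2 ∣ k) : k ≤ B := by
  obtain ⟨m, h0, h1, h3⟩ := h
  have h4 : Nat.Coprime k (2 ^ 22) :=
    Nat.Coprime.pow_right 22 ((Nat.Prime.coprime_iff_not_dvd Nat.prime_two).2 h2).symm
  exact (Nat.le_of_dvd (Nat.pos_of_ne_zero h0) (h4.dvd_of_dvd_mul_left (hk.trans h3))).trans h1

theorem cent_le {g x : Co1} (hxg : x ∈ zpowers g) : centralizer ({g} : Set Co1) ≤ centralizer ({x} : Set Co1) := by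
  intro c hc
  rw [mem_centralizer_singleton_iff] at hc ⊢
  obtain ⟨n, rfl⟩ := hxg
  exact (show Commute c g from hc).zpow_right n

theorem cent_dvd {g x : Co1} (hxg : x ∈ zpowers g) :
    Nat.card (centralizer ({g} : Set Co1)) ∣ Nat.card (centralizer ({x} : Set Co1)) :=
  Subgroup.card_dvd_of_le (cent_le hxg)

/-- **order seven** -/
theorem seven {g y : Co1} (hy : orderOf y = 7) (hyg : y ∈ zpowers g)
    (hodd : ¬ 2 ∣ Nat.card (centralizer ({g} : Set Co1))) : Nat.card (centralizer ({g} : Set Co1)) ≤ 2205 :=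
  odd_le (bd_seven hy) (cent_dvd hyg) hodd

/-- **order five, 256 fixed points** -/
theorem five_eight {g y : Co1} (hy : orderOf y = 5) (hf : fr y = 2 ^ 8) (hyg : y ∈ zpowers g)
    (hodd : ¬ 2 ∣ Nat.card (centralizer ({g} : Set Co1))) : Nat.card (centralizer ({g} : Set Co1)) ≤ 1125 := by
  refine odd_le (n := Nat.card (centralizer ({y} : Set Co1))) ?_ (cent_dvd hyg) hodd
  rw [MFiveHN.UpEight.card_cent hy hf]
  exact ⟨1125, by norm_num, by norm_num, by norm_num⟩

/-- the centralizers of the elements of order three -/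
theorem three_no {s : Co1} (hs : orderOf s = 3) : ¬ 125 ∣ Nat.card (centralizer ({s} : Set Co1)) := by
  rcases LThreeCo1.Ranks.ranks s hs with h | h | h | h
  · rw [card_zero hs h]
    norm_num
  · obtain ⟨g, hg⟩ := LThreeCo1.Ranks.conj_rep LThreeCo1.Ranks.uniq6 hs h
    rw [card_cent_conj (isConj_iff.2 ⟨g, hg⟩)]
    intro h5
    have h1 := h5.trans ((card_cent_dvd (n := 3) (by decide) (by
      rw [← LThreeCo1.Class.order_c6, pow_orderOf_eq_one])).trans
      (H55.CoOneLow.six_dvd LThreeCo1.Class.order_c6 LThreeCo1Six.Data.dx LThreeCo1Six.Data.reg))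
    norm_num at h1
  · obtain ⟨t, ht, hft, ⟨e⟩, -⟩ := LThreeMB.CEight.nine
    obtain ⟨g, hg⟩ := LThreeCo1.Ranks.eight s t hs ht h hft
    have h9 := LThreeCo1Twelve.Elim.card_alt 9 (by norm_num)
    have h9' : Nat.card ↥(alternatingGroup (Fin 9)) = 181440 := by
      have : (9 : ℕ).factorial = 362880 := by decide
      omega
    rw [card_cent_conj (isConj_iff.2 ⟨g, hg⟩), card_cent_XX, ht, Nat.card_congr e.toEquiv, h9']
    norm_num
  · obtain ⟨t, ht, hft, hct, -⟩ := LThreeMB.CoOneFin.coOne.psu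
    obtain ⟨g, hg⟩ := LThreeCo1.Ranks.twelve s t hs ht h hft
    obtain ⟨E, M, iE, iM, K, iK, iK', hEM, hE, hM, hK, ⟨e⟩⟩ := hct.chain
    have h1 : Nat.card ↥M = Nat.card (↥M ⧸ E.subgroupOf M) * Nat.card ↥(E.subgroupOf M) :=
      Subgroup.card_eq_card_quotient_mul_card_subgroup _
    rw [Nat.card_congr e.toEquiv, LThreeB.card_psu hK,
      Nat.card_congr (Subgroup.subgroupOfEquivOfLe hEM).toEquiv, hE] at h1
    have h2 := M.card_mul_index
    rw [h1, hM] at h2
    rw [card_cent_conj (isConj_iff.2 ⟨g, hg⟩), card_cent_XX, ht, ← h2]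
    norm_num

/-- a power of prime order -/
theorem exists_pow {p : ℕ} {g : Co1} (h : p ∣ orderOf g) : ∃ z ∈ zpowers g, orderOf z = p := by
  obtain ⟨m, hm⟩ := h
  have hm0 : m ≠ 0 := by
    rintro rfl
    have := orderOf_pos g
    omega
  refine ⟨g ^ m, ⟨m, by simp⟩, ?_⟩
  rw [orderOf_pow_of_dvd hm0 ⟨p, by rw [hm, mul_comm]⟩, hm]
  exact Nat.mul_div_cancel _ (Nat.pos_of_ne_zero hm0)

/-- **order five, 16 fixed points, `3` divides the order** -/
theorem five_four {g y : Co1} (hy : orderOf y = 5) (hf : fr y = 2 ^ 4) (hyg : y ∈ zpowers g) (h3 : 3 ∣ orderOf g)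
    (hodd : ¬ 2 ∣ Nat.card (centralizer ({g} : Set Co1))) : Nat.card (centralizer ({g} : Set Co1)) ≤ 225 := by
  obtain ⟨z, hzg, hz⟩ := exists_pow h3
  have h4 := H572.CoFiveThree.cent_five_four hy hf
  have hd1 := cent_dvd hyg
  have hd2 : Nat.card (centralizer ({y} : Set Co1)) ∣ 2 ^ 22 * 455625 := by
    obtain ⟨a, rfl, ha, hao⟩ := exists_lift (by norm_num) (by norm_num) hy
    exact (card_cent_dvd (by decide) ha).trans (H55.CoOneLow.five_dvd hao (CoFiveC.Main.finrank_of_fr hao hf))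
  have h0 : Nat.card (centralizer ({g} : Set Co1)) ≠ 0 := Nat.card_pos.ne'
  have h5 := H813.CoSevenCard.reduce (p := 2) (by norm_num) 22 0 h0 (M := 455625) (hd1.trans hd2) (by
    rw [zero_add, pow_one]; exact hodd)
  have h6 := H813.CoSevenCard.reduce (p := 3) (by norm_num) 6 2 h0 (M := 625) (h5.trans (by norm_num))
    (fun h => h4 (h.trans hd1))
  have h7 := H813.CoSevenCard.reduce (p := 5) (by norm_num) 4 2 h0 (M := 9) (h6.trans (by norm_num))
    (fun h => three_no hz (((by norm_num : (125 : ℕ) ∣ 5 ^ (2 + 1)).trans h).trans (cent_dvd hzg)))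
  exact Nat.le_of_dvd (by norm_num) (h7.trans (by norm_num))

/-- `|C(z) ∩ C(y)|` for `z` of order 7 and `y` of order 5 with one fixed point -/
theorem card_inf {y z : Co1} (hy : orderOf y = 5) (hf : fr y = 1) (hz : orderOf z = 7) (hzy : z * y = y * z) :
    Nat.card (centralizer ({z} : Set Co1) ⊓ centralizer ({y} : Set Co1) : Subgroup Co1) ≤ 35 := by
  have hJ := MFive.JTwo.isoJ2 hy hf
  obtain ⟨t, u, Q, v, ρ, D⟩ := KFacts.J2.Facts.exists_dat_of hJ
  have : Finite (XX y) := Quotient.finite _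
  -- the image of `z`
  set zb : XX y := LThreeMB.mk y hzy with hzb
  have hzb7 : orderOf zb = 7 := by
    have : Fact (Nat.Prime 7) := ⟨by norm_num⟩
    refine orderOf_eq_prime ?_ ?_
    · have hck : z ^ 7 * y = y * z ^ 7 := (show Commute z y from hzy).pow_left 7
      have h2 : zb ^ 7 = LThreeMB.mk y hck := rfl
      rw [h2, LThreeMB.mk_eq_one]
      exact ⟨0, by rw [zpow_zero, ← hz, pow_orderOf_eq_one]⟩
    · intro h
      rw [hzb, LThreeMB.mk_eq_one] at h
      obtain ⟨i, hi⟩ := h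
      have h3 : z ^ 5 = 1 := by
        rw [← hi, ← zpow_natCast, ← zpow_mul, mul_comm, zpow_mul, zpow_natCast, ← hy, pow_orderOf_eq_one, one_zpow]
      have h4 := orderOf_dvd_of_pow_eq_one h3
      rw [hz] at h4
      norm_num at h4
  have h7 := H8.Ore.JBound.seven D.F hzb7
  set K : Subgroup Co1 := centralizer ({z} : Set Co1) ⊓ centralizer ({y} : Set Co1) with hK
  let f : ↥K →* XX y := (QuotientGroup.mk' (Zx y)).comp (Subgroup.inclusion inf_le_right)
  have hrange : f.range ≤ centralizer ({zb} : Set (XX y)) := by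
    rintro _ ⟨k, rfl⟩
    rw [mem_centralizer_singleton_iff]
    have h1 := mem_centralizer_singleton_iff.1 (k.2.1)
    have h2 := mem_centralizer_singleton_iff.1 (k.2.2)
    change (QuotientGroup.mk (⟨(k : Co1), _⟩ : centralizer ({y} : Set Co1)) : XX y) * QuotientGroup.mk ⟨z, _⟩ =
      QuotientGroup.mk ⟨z, _⟩ * QuotientGroup.mk ⟨(k : Co1), _⟩
    rw [← QuotientGroup.mk_mul, ← QuotientGroup.mk_mul]
    exact congrArg _ (Subtype.ext h1)
  have hker : Nat.card f.ker ≤ 5 := by
    have h1 : f.ker.map K.subtype ≤ zpowers y := by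
      rintro _ ⟨k, hk, rfl⟩
      have h2 := mem_centralizer_singleton_iff.1 (k.2.2)
      have h3 : LThreeMB.mk y h2 = 1 := hk
      rw [LThreeMB.mk_eq_one] at h3
      obtain ⟨i, hi⟩ := h3
      exact ⟨i, hi⟩
    have h2 := Subgroup.card_le_of_le h1
    rwa [Subgroup.card_map_of_injective K.subtype_injective, Nat.card_zpowers, hy] at h2
  have hcard : Nat.card K = Nat.card f.ker * Nat.card f.range := by
    rw [← Subgroup.card_mul_index f.ker, Subgroup.index_ker]
  rw [hcard]
  have h8 := Subgroup.card_le_of_le hrange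
  rw [h7] at h8
  calc Nat.card f.ker * Nat.card f.range ≤ 5 * 7 := Nat.mul_le_mul hker h8
    _ = 35 := by norm_num

/-- **order five, one fixed point** -/
theorem five_one {g y : Co1} (hy : orderOf y = 5) (hf : fr y = 1) (hyg : y ∈ zpowers g)
    (hodd : ¬ 2 ∣ Nat.card (centralizer ({g} : Set Co1))) : Nat.card (centralizer ({g} : Set Co1)) ≤ 3375 := by
  have hJ := MFive.JTwo.isoJ2 hy hf
  have hJc : Nat.card (centralizer ({y} : Set Co1)) = 3024000 := by
    obtain ⟨e⟩ := hJ
    have h2 : Nat.card Cfsg.Spor.J2 = 604800 := Cfsg.Agent.S1619.result.2.2.2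
    rw [card_cent_XX, hy, Nat.card_congr e.toEquiv, h2]
  have hle := cent_le hyg
  have hd := cent_dvd hyg
  by_cases h7 : 7 ∣ Nat.card (centralizer ({g} : Set Co1))
  · refine le_trans ?_ (by norm_num : (35 : ℕ) ≤ 3375)
    have f7 : Fact (Nat.Prime 7) := ⟨by norm_num⟩
    obtain ⟨z, hz⟩ := exists_prime_orderOf_dvd_card' (G := centralizer ({g} : Set Co1)) 7 h7
    have hz' : orderOf (z : Co1) = 7 := (orderOf_coe z).trans hz
    have hzg := mem_centralizer_singleton_iff.1 z.2
    have hzy := mem_centralizer_singleton_iff.1 (hle z.2)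
    have hK := card_inf hy hf hz' hzy
    set K : Subgroup Co1 := centralizer ({(z : Co1)} : Set Co1) ⊓ centralizer ({y} : Set Co1) with hKdef
    have hgK : g ∈ K := by
      refine ⟨mem_centralizer_singleton_iff.2 hzg.symm, hle (mem_centralizer_singleton_iff.2 rfl)⟩
    have hzK : (z : Co1) ∈ K := ⟨mem_centralizer_singleton_iff.2 rfl, hle z.2⟩
    have hyK : y ∈ K := ⟨mem_centralizer_singleton_iff.2 hzy.symm, mem_centralizer_singleton_iff.2 rfl⟩
    have h35 : Nat.card K = 35 := by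
      have h1 : 5 ∣ Nat.card K := by
        rw [← hy, ← Subgroup.orderOf_mk y hyK]
        exact orderOf_dvd_natCard _
      have h2 : 7 ∣ Nat.card K := by
        rw [← hz', ← Subgroup.orderOf_mk (z : Co1) hzK]
        exact orderOf_dvd_natCard _
      have h3 : 0 < Nat.card K := Nat.card_pos
      omega
    have hgd : orderOf g ∣ 35 := by
      rw [← h35, ← Subgroup.orderOf_mk g hgK]
      exact orderOf_dvd_natCard _
    have h5g : 5 ∣ orderOf g := by
      obtain ⟨n, rfl⟩ := hyg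
      rw [← hy]
      apply orderOf_dvd_of_pow_eq_one
      rw [← zpow_natCast, ← zpow_mul, mul_comm, zpow_mul, zpow_natCast, pow_orderOf_eq_one, one_zpow]
    obtain ⟨m, hm⟩ := h5g
    rw [hm] at hgd
    have hm7 : m ∣ 7 := by
      have : 5 * m ∣ 5 * 7 := by simpa using hgd
      exact Nat.dvd_of_mul_dvd_mul_left (by norm_num) this
    rcases (Nat.dvd_prime (by norm_num : Nat.Prime 7)).1 hm7 with rfl | rfl
    · exfalso
      -- `⟨g⟩ = ⟨y⟩`
      have h1 : zpowers y = zpowers g := by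
        refine Subgroup.eq_of_le_of_card_ge (by rw [zpowers_le]; exact hyg) ?_
        rw [Nat.card_zpowers, Nat.card_zpowers, hy, hm]
      have h2 : g ∈ zpowers y := by rw [h1]; exact mem_zpowers g
      have h3 := cent_dvd h2
      rw [hJc] at h3
      exact hodd ((by norm_num : (2 : ℕ) ∣ 3024000).trans h3)
    · have h1 : zpowers g = K := by
        refine Subgroup.eq_of_le_of_card_ge (by rw [zpowers_le]; exact hgK) ?_
        rw [Nat.card_zpowers, hm, h35]
      have h2 : (z : Co1) ∈ zpowers g := by rw [h1]; exact hzK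
      exact (Subgroup.card_le_of_le (le_inf (cent_le h2) hle)).trans hK
  · have h0 : Nat.card (centralizer ({g} : Set Co1)) ≠ 0 := Nat.card_pos.ne'
    rw [hJc] at hd
    have h5 := H813.CoSevenCard.reduce (p := 2) (by norm_num) 7 0 h0 (M := 23625) (hd.trans (by norm_num)) (by
      rw [zero_add, pow_one]; exact hodd)
    have h6 := H813.CoSevenCard.reduce (p := 7) (by norm_num) 1 0 h0 (M := 3375) (h5.trans (by norm_num)) (by
      rw [zero_add, pow_one]; exact h7)
    exact Nat.le_of_dvd (by norm_num) (h6.trans (by norm_num))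

end Cfsg.Agent.H253.CoOdd
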